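import Cfsg.Agent.H955.FSAmb
import Cfsg.Agent.H967.CopConj

/-!
# Applications of the covering principle (team SR, S4970; helper168)

* `ci_good` : groups in which the centralisers of the involutions have exponent two have no indicator `-1`;
* `inv_cover` : reduction to the centralisers of the involutions;
* `good_of_levi` : groups `X = N L`, `N` a normal 2-group, in which elements of odd order of `L` centralise only
  a subgroup `C` of `N` which is centralised by `L`.
-/

set_option autoImplicit false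

universe u

namespace Cfsg.Agent.H168.FRHex

open Cfsg Cfsg.Agent.H955.FS

/-- The centralisers of the involutions have exponent two. -/
def CI (L : Type u) [Group L] : Prop := ∀ t y : L, t * t = 1 → t ≠ 1 → t * y = y * t → y * y = 1

theorem CI.of_injective {L M : Type u} [Group L] [Group M] (f : L →* M) (hf : Function.Injective f) (h : CI M) :
    CI L := fun t y ht ht1 e => hf (by
  rw [map_mul, map_one]
  exact h (f t) (f y) (by rw [← map_mul, ht, map_one]) (fun e1 => ht1 (hf (by rw [e1, map_one])))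
    (by rw [← map_mul, e, map_mul]))

/-- groups of exponent two -/
theorem good_of_exp_two {P : Type u} [Group P] [Finite P] (h : ∀ y : P, y * y = 1) : FSGood True P := by
  refine (fsGood_of_compl (⊥ : Subgroup P) ?_ fun y _ => h y).mono fun _ => trivial
  rw [Subgroup.card_bot]
  exact odd_one

/-- groups of odd order -/
theorem good_of_odd {P : Type u} [Group P] [Finite P] (h : Odd (Nat.card P)) : FSGood True P := by
  refine (fsGood_of_compl (⊤ : Subgroup P) ?_ fun y hy => absurd (Subgroup.mem_top y) hy).mono fun _ => trivial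
  rwa [Subgroup.card_top]

/-- a power of a non-trivial 2-element -/
theorem exists_sq_one {P : Type*} [Group P] {g : P} (hg : g ≠ 1) {n : ℕ} (hn : g ^ 2 ^ n = 1) :
    ∃ k : ℕ, g ^ k ≠ 1 ∧ g ^ k * g ^ k = 1 := by
  induction n with
  | zero => exact absurd (by simpa using hn) hg
  | succ n ih =>
    by_cases h : g ^ 2 ^ n = 1
    · exact ih h
    · refine ⟨2 ^ n, h, ?_⟩
      rw [← pow_add, ← two_mul, ← pow_succ', hn]

/-- a normal subgroup of a finite 2-group contains a central involution -/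
theorem exists_inv_center {P : Type*} [Group P] [Finite P] (hP : IsPGroup 2 P) (N : Subgroup P) [N.Normal]
    (hN : N ≠ ⊥) : ∃ z ∈ N, z ≠ 1 ∧ z * z = 1 ∧ ∀ g, g * z = z * g := by
  have hf : Fact (Nat.Prime 2) := ⟨Nat.prime_two⟩
  have hc : IsPGroup 2 (ConjAct P) := hP.of_equiv ConjAct.toConjAct
  have hd : 2 ∣ Nat.card N := by
    obtain ⟨n, hn⟩ := IsPGroup.iff_card.1 (hP.to_subgroup N)
    rw [hn]
    refine dvd_pow_self 2 fun h0 => hN ?_
    rw [h0, pow_zero] at hn
    exact Subgroup.card_eq_one.1 hn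
  obtain ⟨b, hb, hb1⟩ := hc.exists_fixed_point_of_prime_dvd_card_of_fixed_point N hd
    (a := (1 : N)) (fun g => smul_one g)
  have hbc : ∀ g : P, g * b = b * g := by
    intro g
    have h1 := congrArg Subtype.val (hb (ConjAct.toConjAct g))
    have h2 : g * b * g⁻¹ = b := h1
    rw [mul_inv_eq_iff_eq_mul] at h2
    exact h2
  obtain ⟨n, hn⟩ := hP (b : P)
  obtain ⟨k, h1, h2⟩ := exists_sq_one (g := (b : P)) (fun e => hb1 (Subtype.ext e.symm)) hn
  refine ⟨(b : P) ^ k, pow_mem b.2 k, h1, h2, fun g => ?_⟩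
  exact (Commute.pow_right (hbc g : Commute g b) k).eq

/-- the group `⟨c⟩ P` if no element of `P` except `1` commutes with `c` -/
theorem good_dih {G : Type u} [Group G] [Finite G] (c : G) (hc : Odd (orderOf c)) (P : Subgroup G)
    (hcP : ∀ g ∈ P, g * c * g⁻¹ = c ∨ g * c * g⁻¹ = c⁻¹) (h0 : ∀ g ∈ P, g * c * g⁻¹ = c → g = 1) :
    ∃ Y : Subgroup G, c ∈ Y ∧ P ≤ Y ∧ FSGood True Y := by
  -- the group of all elements `c ^ i g`
  let Y : Subgroup G :=
    { carrier := {y | ∃ i : ℤ, ∃ g ∈ P, y = c ^ i * g}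
      mul_mem' := by
        rintro _ _ ⟨i, g, hg, rfl⟩ ⟨j, g', hg', rfl⟩
        rcases hcP g hg with h1 | h1
        · refine ⟨i + j, g * g', mul_mem hg hg', ?_⟩
          have h2 : g * c ^ j * g⁻¹ = c ^ j := by rw [← conj_zpow, h1]
          calc c ^ i * g * (c ^ j * g') = c ^ i * (g * c ^ j * g⁻¹) * (g * g') := by group
            _ = _ := by rw [h2, zpow_add]
        · refine ⟨i - j, g * g', mul_mem hg hg', ?_⟩
          have h2 : g * c ^ j * g⁻¹ = c ^ (-j) := by rw [← conj_zpow, h1, inv_zpow, zpow_neg]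
          calc c ^ i * g * (c ^ j * g') = c ^ i * (g * c ^ j * g⁻¹) * (g * g') := by group
            _ = _ := by rw [h2, sub_eq_add_neg, zpow_add]
      one_mem' := ⟨0, 1, one_mem _, by simp⟩
      inv_mem' := by
        rintro _ ⟨i, g, hg, rfl⟩
        rcases hcP g⁻¹ (inv_mem hg) with h1 | h1
        · refine ⟨-i, g⁻¹, inv_mem hg, ?_⟩
          have h2 : g⁻¹ * c ^ (-i) * g⁻¹⁻¹ = c ^ (-i) := by rw [← conj_zpow, h1]
          calc (c ^ i * g)⁻¹ = (g⁻¹ * c ^ (-i) * g⁻¹⁻¹) * g⁻¹ := by group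
            _ = _ := by rw [h2]
        · refine ⟨i, g⁻¹, inv_mem hg, ?_⟩
          have h2 : g⁻¹ * c ^ (-i) * g⁻¹⁻¹ = c ^ i := by rw [← conj_zpow, h1, inv_zpow, zpow_neg, inv_inv]
          calc (c ^ i * g)⁻¹ = (g⁻¹ * c ^ (-i) * g⁻¹⁻¹) * g⁻¹ := by group
            _ = _ := by rw [h2] }
  have hY : ∀ y, y ∈ Y ↔ ∃ i : ℤ, ∃ g ∈ P, y = c ^ i * g := fun y => Iff.rfl
  refine ⟨Y, ⟨1, 1, one_mem _, by simp⟩, fun g hg => ⟨0, g, hg, by simp⟩, ?_⟩
  let C : Subgroup Y := (Subgroup.zpowers c).subgroupOf Y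
  have hCY : Subgroup.zpowers c ≤ Y := by
    rw [Subgroup.zpowers_le]
    exact ⟨1, 1, one_mem _, by simp⟩
  have hC : Odd (Nat.card C) := by
    rw [Nat.card_congr (Subgroup.subgroupOfEquivOfLe hCY).toEquiv, Nat.card_zpowers]
    exact hc
  refine (fsGood_of_compl C hC ?_).mono fun _ => trivial
  rintro ⟨y, hy⟩ hyC
  obtain ⟨i, g, hg, rfl⟩ := (hY y).1 hy
  have hg1 : g ≠ 1 := by
    rintro rfl
    exact hyC (Subgroup.mem_subgroupOf.2 (by
      show c ^ i * 1 ∈ Subgroup.zpowers c
      rw [mul_one]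
      exact Subgroup.zpow_mem_zpowers c i))
  have h1 : g * c * g⁻¹ = c⁻¹ := (hcP g hg).resolve_left fun e => hg1 (h0 g hg e)
  have h2 : g * g = 1 := h0 (g * g) (mul_mem hg hg) (by
    calc g * g * c * (g * g)⁻¹ = g * (g * c * g⁻¹) * g⁻¹ := by group
      _ = g * c⁻¹ * g⁻¹ := by rw [h1]
      _ = (g * c * g⁻¹)⁻¹ := by group
      _ = c := by rw [h1, inv_inv])
  apply Subtype.ext
  show c ^ i * g * (c ^ i * g) = 1
  have h3 : g * c ^ i * g⁻¹ = c ^ (-i) := by rw [← conj_zpow, h1, inv_zpow, zpow_neg]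
  calc c ^ i * g * (c ^ i * g) = c ^ i * (g * c ^ i * g⁻¹) * (g * g) := by group
    _ = 1 := by rw [h3, h2, mul_one, ← zpow_add, add_neg_cancel, zpow_zero]

/-- **Groups in which the centralisers of the involutions have exponent two.** -/
theorem ci_good {L : Type u} [Group L] [Finite L] (h : CI L) : FSGood True L := by
  refine fsGood_of_cover fun c hc P hP hcP => ?_
  by_cases hc1 : c = 1
  · subst hc1
    refine ⟨P, one_mem _, le_rfl, good_of_exp_two fun y => ?_⟩
    by_cases hb : (⊤ : Subgroup P) = ⊥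
    · have : y ∈ (⊤ : Subgroup P) := Subgroup.mem_top y
      rw [hb, Subgroup.mem_bot] at this
      rw [this, one_mul]
    · obtain ⟨z, -, hz1, hz2, hz3⟩ := exists_inv_center hP ⊤ hb
      have := h (z : L) (y : L) (congrArg Subtype.val hz2) (fun e => hz1 (Subtype.ext e))
        (congrArg Subtype.val (hz3 y).symm)
      exact Subtype.ext this
  · refine good_dih c hc P hcP fun g hg hgc => ?_
    by_contra hg1
    obtain ⟨n, hn⟩ := hP ⟨g, hg⟩
    obtain ⟨k, h1, h2⟩ := exists_sq_one (g := g) hg1 (congrArg Subtype.val hn)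
    have h3 : g * c = c * g := by rwa [mul_inv_eq_iff_eq_mul] at hgc
    have h4 := h (g ^ k) c h2 h1 (Commute.pow_left (h3 : Commute g c) k).eq
    apply hc1
    rw [← pow_two] at h4
    have h5 := orderOf_dvd_of_pow_eq_one h4
    have h6 : orderOf c = 1 := by
      rcases (Nat.dvd_prime Nat.prime_two).1 h5 with h7 | h7
      · exact h7
      · rw [h7] at hc
        exact absurd hc (by decide)
    exact orderOf_eq_one_iff.1 h6

/-- **Reduction to the centralisers of the involutions.** -/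
theorem inv_cover {G : Type u} [Group G] [Finite G]
    (h : ∀ z : G, z * z = 1 → z ≠ 1 → FSGood True (Subgroup.centralizer ({z} : Set G))) : FSGood True G := by
  refine fsGood_of_cover fun c hc P hP hcP => ?_
  let P0 : Subgroup P := (Subgroup.centralizer ({c} : Set G)).subgroupOf P
  have hP0 : ∀ g : P, g ∈ P0 ↔ (g : G) * c * (g : G)⁻¹ = c := by
    intro g
    rw [Subgroup.mem_subgroupOf, Subgroup.mem_centralizer_singleton_iff, mul_inv_eq_iff_eq_mul]
  by_cases hb : P0 = ⊥
  · refine good_dih c hc P hcP fun g hg hgc => ?_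
    have h1 : (⟨g, hg⟩ : P) ∈ P0 := (hP0 _).2 hgc
    rw [hb, Subgroup.mem_bot] at h1
    exact congrArg Subtype.val h1
  · have hn : P0.Normal := by
      refine ⟨fun n hn g => ?_⟩
      rw [hP0] at hn ⊢
      have e1 : ((g * n * g⁻¹ : P) : G) * c * ((g * n * g⁻¹ : P) : G)⁻¹ =
          (g : G) * ((n : G) * ((g⁻¹ : P) * c * ((g⁻¹ : P) : G)⁻¹) * (n : G)⁻¹) * (g : G)⁻¹ := by
        simp only [Subgroup.coe_mul, Subgroup.coe_inv]; group
      rw [e1]
      have e3 : (g : G) * (((g⁻¹ : P) : G) * c * ((g⁻¹ : P) : G)⁻¹) * (g : G)⁻¹ = c := by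
        simp only [Subgroup.coe_inv]; group
      rcases hcP ((g⁻¹ : P) : G) (g⁻¹).2 with h1 | h1
      · rw [h1, hn]
        rwa [h1] at e3
      · have e2 : (n : G) * c⁻¹ * (n : G)⁻¹ = c⁻¹ := by
          calc (n : G) * c⁻¹ * (n : G)⁻¹ = ((n : G) * c * (n : G)⁻¹)⁻¹ := by group
            _ = c⁻¹ := by rw [hn]
        rw [h1, e2]
        rwa [h1] at e3
    obtain ⟨z, hz0, hz1, hz2, hz3⟩ := exists_inv_center hP P0 hb
    refine ⟨Subgroup.centralizer ({(z : G)} : Set G), ?_, ?_, h z (congrArg Subtype.val hz2)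
      fun e => hz1 (Subtype.ext e)⟩
    · rw [Subgroup.mem_centralizer_singleton_iff]
      have := (hP0 z).1 hz0
      rw [mul_inv_eq_iff_eq_mul] at this
      exact this.symm
    · intro g hg
      rw [Subgroup.mem_centralizer_singleton_iff]
      exact congrArg Subtype.val (hz3 ⟨g, hg⟩)

end Cfsg.Agent.H168.FRHex
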