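import Cfsg.Agent.H168.FRHex.ShortMain

/-!
# The centraliser of a long root involution, characters trivial on `X₄` (team SR, S4970; helper168)
-/

set_option autoImplicit false
set_option linter.unusedVariables false

namespace Cfsg.Agent.H168.FRHex.Long

open Cfsg Cfsg.Agent.H955.FS Cfsg.Agent.StdRank2.Hex Cfsg.Agent.StdRank2.Hex.HexTwo Cfsg.Agent.SplitTwo
open Cfsg.Agent.H168.SRHex

universe u v

/-- **Characters of `X = A L` (`A` normal, `L` a complement with property `CI`) trivial on the squares of `A`.** -/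
theorem good_triv {Γ : Type u} [Group Γ] (X A L Z : Subgroup Γ) [Finite X] (hAX : A ≤ X) (hLX : L ≤ X)
    (hAn : ∀ g ∈ X, ∀ a ∈ A, g * a * g⁻¹ ∈ A) (hdec : ∀ g ∈ X, ∃ a ∈ A, ∃ l ∈ L, g = a * l)
    (hAL : ∀ g ∈ L, g ∈ A → g = 1) (hL : CI L) (hZA : Z ≤ A) (hsq : ∀ a ∈ A, a * a ∈ Z) {χ : X → ℂ}
    (hχ : IsIrrCharacter X χ) (hker : ∀ z (hz : z ∈ Z), χ ⟨z, hAX (hZA hz)⟩ = χ 1) :
    fsi χ = 1 ∨ (True ∧ fsi χ = 0) := by
  classical
  have fL : Finite L := Finite.of_injective (Subgroup.inclusion hLX) (Subgroup.inclusion_injective hLX)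
  obtain ⟨lam, k1, k2, -, k4⟩ := exists_linear (A.subgroupOf X) (Z.subgroupOf X)
    (fun g hg => Subgroup.mem_subgroupOf.2 (hZA (Subgroup.mem_subgroupOf.1 hg)))
    (fun g hg => Subgroup.mem_subgroupOf.2 (hsq _ (Subgroup.mem_subgroupOf.1 hg))) hχ
    (fun g hg => hker g (Subgroup.mem_subgroupOf.1 hg))
  let lam' : Γ → ℂ := fun g => if hg : g ∈ A then lam ⟨⟨g, hAX hg⟩, Subgroup.mem_subgroupOf.2 hg⟩ else 0
  have hl : ∀ (g : Γ) (hg : g ∈ A), lam' g = lam ⟨⟨g, hAX hg⟩, Subgroup.mem_subgroupOf.2 hg⟩ := fun g hg => dif_pos hg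
  let S : Subgroup L :=
    { carrier := {y | ∀ a ∈ A, lam' (L.subtype y * a * (L.subtype y)⁻¹) = lam' a}
      mul_mem' := by
        intro y y' hy hy' a ha
        rw [← hy' a ha, ← hy _ (hAn (L.subtype y') (hLX y'.2) a ha), map_mul]
        congr 1
        group
      one_mem' := by
        intro a ha
        rw [map_one, one_mul, inv_one, mul_one]
      inv_mem' := by
        intro y hy a ha
        have hm := hAn (L.subtype y⁻¹) (hLX (y⁻¹ : L).2) a ha
        rw [← hy _ hm, map_inv]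
        congr 1
        group }
  exact clifford_amb X A hAX hAn L.subtype (fun y => hLX y.2) (fun y hy => Subtype.ext (hAL _ y.2 hy))
    (fun g hg => by
      obtain ⟨a, ha, l, hl', e⟩ := hdec g hg
      exact ⟨a, ha, ⟨l, hl'⟩, e⟩) lam'
    (fun a ha b hb => by rw [hl a ha, hl b hb, hl _ (mul_mem ha hb), ← k1]; rfl)
    (fun a ha => by rw [hl a ha]; exact k2 _) (w := True) S (fun y => Iff.rfl)
    (ci_good (CI.of_injective S.subtype Subtype.val_injective hL)) hχ (by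
      intro h0
      apply k4
      rw [← h0]
      let e : A.subgroupOf X ≃ A := (Subgroup.subgroupOfEquivOfLe hAX).toEquiv
      refine finsum_eq_of_bijective e e.bijective (fun a => ?_)
      show χ a * lam a = χ _ * lam' ((a : X) : Γ)
      rw [hl _ (Subgroup.mem_subgroupOf.1 a.2)]
      rfl)

variable {E : Type u} [Field E] {σ : E ≃+* E} {G : Type v} [Group G] {x : ZMod 12 → E → G}
variable (h : HexTwo σ x)
include h

/-- **Characters of `C(x 4 1) = ⟨X₁, …, X₇⟩` trivial on `X₄`.** -/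
theorem long_one [Finite E] [Finite G] {χ : gen σ x (arc 1 7) → ℂ} (hχ : IsIrrCharacter (gen σ x (arc 1 7)) χ)
    (hker : ∀ z (hz : z ∈ gen σ x {4}) (hz' : z ∈ gen σ x (arc 1 7)), χ ⟨z, hz'⟩ = χ 1) :
    fsi χ = 1 ∨ (True ∧ fsi χ = 0) := by
  have e12 : (1 : ZMod 12) + 1 = 2 := by decide
  have hAX : gen σ x (arc 2 5) ≤ gen σ x (arc 1 7) := by
    have := Levi.Q_le (σ := σ) (x := x) 1
    rwa [e12] at this
  have h4 : gen σ x {4} ≤ gen σ x (arc 2 5) := gen_mono (by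
    intro l hl
    rw [Set.mem_singleton_iff] at hl
    subst hl
    rw [mem_arc]; decide)
  refine good_triv (gen σ x (arc 1 7)) (gen σ x (arc 2 5)) (gen σ x {(1 : ZMod 12), 1 + 6}) (gen σ x {4}) hAX
    (Levi.L_le 1) ?_ ?_ ?_ (Short.ci_L h 1) h4 ?_ hχ (fun z hz => hker z hz _)
  · intro g hg a ha
    have := Levi.Q_conj h (k := 1) hg (y := a) (by rw [e12]; exact ha)
    rwa [e12] at this
  · intro g hg
    obtain ⟨a, ha, l, hl, e⟩ := (h.mem_P 1).1 hg
    rw [e12] at ha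
    exact ⟨a, ha, l, hl, e⟩
  · intro g hg hg'
    exact Levi.eq_one_of_LQ h hg (by rw [e12]; exact hg')
  · intro a ha
    obtain ⟨b, c, d, e, f, hb, hd, hf, rfl⟩ := h.mem_Q1.1 ha
    rw [Short.sq_A2 h hb hd hf]
    exact x_mem_gen (Set.mem_singleton 4) (ok_of_fix 4 (by rw [map_add, map_mul, hb, hf, h.fix_trc]))

end Cfsg.Agent.H168.FRHex.Long
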