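import Cfsg.Agent.H955.FSAmb
import Cfsg.Agent.CharactersDeep.MackeyLinear

/-!
# Monomial characters with values `±1` (team SR, S4970; helper168)

* `mono` : an irreducible character which contains a sign character of `A` satisfying Mackey's criterion has indicator one.
* `exists_sign` : sign characters of `A` extending a given one.
-/

set_option autoImplicit false

universe u

namespace Cfsg.Agent.H168.FRHex

open Cfsg Cfsg.Agent.H955.FS
open Cfsg.Agent.Characters.Core
open scoped ComplexConjugate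

/-- **Monomial characters.** -/
theorem mono {G : Type u} [Group G] [Finite G] (A : Subgroup G) (lam : A → ℂ)
    (hlam : ∀ a b : A, lam (a * b) = lam a * lam b) (hpm : ∀ a, lam a = 1 ∨ lam a = -1)
    (hM : ∀ g : G, g ∉ A → ∃ (a : A) (h : g * a * g⁻¹ ∈ A), lam ⟨g * a * g⁻¹, h⟩ ≠ lam a)
    {χ : G → ℂ} (hχ : IsIrrCharacter G χ) (hover : ∑ᶠ a : A, χ a * lam a ≠ 0) : fsi χ = 1 := by
  classical
  have := Fintype.ofFinite G
  have := Fintype.ofFinite A
  have hll : ∀ a, lam a * lam a = 1 := by
    intro a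
    rcases hpm a with h | h <;> rw [h] <;> norm_num
  have hconj : ∀ a, conj (lam a) = lam a := by
    intro a
    rcases hpm a with h | h <;> rw [h] <;> simp
  let f : A →* ℂˣ := MonoidHom.mk' (fun a => ⟨lam a, lam a, hll a, hll a⟩) fun a b =>
    Units.ext (hlam a b)
  have hf : ∀ a, ((f a : ℂˣ) : ℂ) = lam a := fun a => rfl
  have hirr : IsIrrCharacter G (indFun A lam) := by
    refine Cfsg.Agent.CharactersDeep.MackeyLinear.isIrrCharacter_indFun A f fun x hx => ?_
    obtain ⟨a, ha, hne⟩ := hM x⁻¹ (fun h => hx ((inv_mem_iff).1 h))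
    have e : x⁻¹ * (a : G) * x⁻¹⁻¹ = x⁻¹ * a * x := by rw [inv_inv]
    refine ⟨a, by rw [← e]; exact ha, fun h => hne ?_⟩
    have h1 := congrArg (fun z : ℂˣ => (z : ℂ)) h
    simp only [hf] at h1
    rw [h1]
    congr 1
    exact Subtype.ext e
  have hlamI : IsIrrCharacter A lam := isIrr_sign lam hlam hpm
  have hne : classInner (indFun A lam) χ ≠ 0 := by
    rw [CharactersDeep.NormalInd.classInner_indFun A lam χ (isIrr_isClassFunction hχ), classInner_def]
    refine mul_ne_zero (inv_ne_zero card_ne_zero_complex) fun h0 => hover ?_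
    rw [finsum_eq_sum_of_fintype]
    have h1 : ∑ a : A, χ a * lam a = conj (∑ a : A, lam a * conj (χ a)) := by
      rw [map_sum]
      refine Finset.sum_congr rfl fun a _ => ?_
      rw [map_mul, hconj, Complex.conj_conj, mul_comm]
    rw [h1, h0, map_zero]
  have heq : indFun A lam = χ := by
    by_contra h
    exact hne (classInner_irr_ne hirr hχ h)
  have hreal : ∀ g, (χ g).im = 0 := by
    intro g
    rw [← heq, ← Complex.conj_eq_iff_im]
    have h2 : (fun a => conj (lam a)) = lam := funext hconj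
    have h3 := indFun_conj A lam
    rw [h2] at h3
    exact (congrFun h3 g).symm
  have hmult : classInner (fun a : A => χ (A.subtype a)) lam = 1 := by
    have h1 := CharactersDeep.NormalInd.classInner_indFun A lam χ (isIrr_isClassFunction hχ)
    rw [heq, classInner_irr_self hχ] at h1
    rw [← classInner_conj_symm]
    show conj (classInner lam fun a : A => χ a) = 1
    rw [← h1, map_one]
  rw [fsi_eq_sum_c]
  refine Cfsg.Agent.H705.Indicator.indicator_restrict A.subtype hχ hreal hlamI ?_ hmult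
  have h4 : ∀ a : A, lam (a * a) = 1 := fun a => by rw [hlam, hll]
  simp_rw [h4]
  rw [Finset.sum_const, Finset.card_univ, ← Nat.card_eq_fintype_card, nsmul_eq_mul, mul_one,
    inv_mul_cancel₀ card_ne_zero_complex]

/-- Monomial characters, for subgroups of an ambient group. -/
theorem mono_amb {Γ : Type u} [Group Γ] (X A : Subgroup Γ) [Finite X] (hAX : A ≤ X) (lam : Γ → ℂ)
    (hlam : ∀ a ∈ A, ∀ b ∈ A, lam (a * b) = lam a * lam b) (hpm : ∀ a ∈ A, lam a = 1 ∨ lam a = -1)
    (hM : ∀ g ∈ X, g ∉ A → ∃ a ∈ A, g * a * g⁻¹ ∈ A ∧ lam (g * a * g⁻¹) ≠ lam a)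
    {χ : X → ℂ} (hχ : IsIrrCharacter X χ) (hover : ∑ᶠ a : A, χ ⟨a, hAX a.2⟩ * lam a ≠ 0) : fsi χ = 1 := by
  refine mono (A.subgroupOf X) (fun a => lam (a : X)) ?_ ?_ ?_ hχ ?_
  · intro a b
    exact hlam _ (Subgroup.mem_subgroupOf.1 a.2) _ (Subgroup.mem_subgroupOf.1 b.2)
  · intro a
    exact hpm _ (Subgroup.mem_subgroupOf.1 a.2)
  · intro g hg
    obtain ⟨a, ha, hga, hne⟩ := hM g g.2 (fun h => hg (Subgroup.mem_subgroupOf.2 h))
    exact ⟨⟨⟨a, hAX ha⟩, Subgroup.mem_subgroupOf.2 ha⟩, Subgroup.mem_subgroupOf.2 hga, hne⟩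
  · intro h
    apply hover
    rw [← h]
    let e : A ≃ A.subgroupOf X := (Subgroup.subgroupOfEquivOfLe hAX).symm.toEquiv
    exact finsum_eq_of_bijective e e.bijective (fun a => rfl)

/-- **Existence of sign characters.** `f` a function on `A`, `Z ≤ A`, `lam` a sign character of `Z`, trivial on the
squares of elements of `A`. -/
theorem exists_sign {A : Type u} [Group A] [Finite A] (Z : Subgroup A) (lam : A → ℂ)
    (hlam : ∀ a ∈ Z, ∀ b ∈ Z, lam (a * b) = lam a * lam b) (hpm : ∀ a ∈ Z, lam a = 1 ∨ lam a = -1)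
    (hsq : ∀ a : A, a * a ∈ Z ∧ lam (a * a) = 1) (f : A → ℂ) (hf : ∑ᶠ z : Z, f z * lam z ≠ 0) :
    ∃ mu : A → ℂ, (∀ a b, mu (a * b) = mu a * mu b) ∧ (∀ a, mu a = 1 ∨ mu a = -1) ∧ (∀ z ∈ Z, mu z = lam z) ∧
      ∑ᶠ a : A, f a * mu a ≠ 0 := by
  classical
  have := Fintype.ofFinite A
  have := Fintype.ofFinite Z
  -- the kernel
  have hone : lam 1 = 1 := by
    have h := hlam 1 (one_mem _) 1 (one_mem _)
    rw [mul_one] at h
    rcases hpm 1 (one_mem _) with h1 | h1
    · exact h1
    · rw [h1] at h; norm_num at h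
  have hll : ∀ z ∈ Z, lam z * lam z = 1 := by
    intro z hz
    rcases hpm z hz with h | h <;> rw [h] <;> norm_num
  let D : Subgroup A :=
    { carrier := {z | z ∈ Z ∧ lam z = 1}
      mul_mem' := fun {a b} ha hb => ⟨mul_mem ha.1 hb.1, by rw [hlam a ha.1 b hb.1, ha.2, hb.2, mul_one]⟩
      one_mem' := ⟨one_mem _, hone⟩
      inv_mem' := fun {a} ha => ⟨inv_mem ha.1, by
        have h1 := hlam a ha.1 a⁻¹ (inv_mem ha.1)
        rw [mul_inv_cancel, hone, ha.2, one_mul] at h1
        exact h1.symm⟩ }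
  have hD : ∀ z, z ∈ D ↔ z ∈ Z ∧ lam z = 1 := fun z => Iff.rfl
  have hsq' : ∀ a : A, a * a ∈ D := fun a => hsq a
  have hnorm : D.Normal := by
    refine ⟨fun z hz a => ?_⟩
    have h1 : a * z * a⁻¹ = (a * z) * (a * z) * z⁻¹ * (a⁻¹ * a⁻¹) := by group
    rw [h1]
    exact mul_mem (mul_mem (hsq' _) (inv_mem hz)) (hsq' _)
  have hcomm : ∀ x y : A ⧸ D, x * y = y * x := by
    have h1 : ∀ x : A ⧸ D, x * x = 1 := by
      intro x
      obtain ⟨a, rfl⟩ := QuotientGroup.mk_surjective x
      rw [← QuotientGroup.mk_mul]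
      exact (QuotientGroup.eq_one_iff _).2 (hsq' a)
    intro x y
    have h2 := h1 (x * y)
    calc x * y = x * ((x * y) * (x * y)) * y := by rw [h2, mul_one]
      _ = (x * x) * (y * x) * (y * y) := by group
      _ = y * x := by rw [h1, h1, one_mul, mul_one]
  let inst : CommGroup (A ⧸ D) := { (inferInstance : Group (A ⧸ D)) with mul_comm := hcomm }
  have hfin : Finite (A ⧸ D) := inferInstance
  have := Fintype.ofFinite (A ⧸ D)
  let cf : AddChar (Additive (A ⧸ D)) ℂ → A → ℂ := fun l a => l (Additive.ofMul (a : A ⧸ D))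
  have cm : ∀ l a b, cf l (a * b) = cf l a * cf l b := fun l a b => by
    simp only [cf]
    rw [QuotientGroup.mk_mul, ofMul_mul, AddChar.map_add_eq_mul]
  have cD : ∀ l, ∀ a ∈ D, cf l a = 1 := fun l a ha => by
    simp only [cf]
    rw [(QuotientGroup.eq_one_iff _).2 ha, ofMul_one, AddChar.map_zero_eq_one]
  have cpm : ∀ l a, cf l a = 1 ∨ cf l a = -1 := fun l a => by
    have h3 : cf l a * cf l a = 1 := by rw [← cm, cD l _ (hsq' a)]
    exact mul_self_eq_one_iff.1 h3
  -- the total sum
  have key : ∑ l : AddChar (Additive (A ⧸ D)) ℂ, (∑ z : Z, lam z * cf l z) * (∑ a : A, f a * cf l a) ≠ 0 := by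
    have h3 : ∀ a : A, ∑ l : AddChar (Additive (A ⧸ D)) ℂ, cf l a =
        if a ∈ D then (Fintype.card (Additive (A ⧸ D)) : ℂ) else 0 := by
      intro a
      have := AddChar.sum_apply_eq_ite (Additive.ofMul (a : A ⧸ D)) (α := Additive (A ⧸ D))
      simp only [cf]
      rw [this]
      congr 1
      rw [eq_iff_iff, ← QuotientGroup.eq_one_iff, ofMul_eq_zero]
    have h4 : ∑ l : AddChar (Additive (A ⧸ D)) ℂ, (∑ z : Z, lam z * cf l z) * (∑ a : A, f a * cf l a) =
        ∑ z : Z, ∑ a : A, lam z * f a * ∑ l : AddChar (Additive (A ⧸ D)) ℂ, cf l ((z : A) * a) := by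
      simp_rw [Finset.sum_mul_sum, Finset.mul_sum, cm]
      rw [Finset.sum_comm]
      refine Finset.sum_congr rfl fun z _ => ?_
      rw [Finset.sum_comm]
      refine Finset.sum_congr rfl fun a _ => Finset.sum_congr rfl fun l _ => ?_
      ring
    rw [h4]
    have h5 : ∀ z : Z, ∑ a : A, lam z * f a * (if (z : A) * a ∈ D then (Fintype.card (Additive (A ⧸ D)) : ℂ) else 0) =
        (Fintype.card (Additive (A ⧸ D)) : ℂ) *
          ∑ a : A, if (z : A) * a ∈ D then lam a * f a else 0 := by
      intro z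
      rw [Finset.mul_sum]
      refine Finset.sum_congr rfl fun a _ => ?_
      split_ifs with h
      · have ha : a ∈ Z := by
          have := mul_mem (inv_mem z.2) h.1
          rwa [inv_mul_cancel_left] at this
        have e1 : lam z = lam a := by
          have h6 := h.2
          rw [hlam z z.2 a ha] at h6
          have h7 := hll a ha
          calc lam z = lam z * (lam a * lam a) := by rw [h7, mul_one]
            _ = (lam z * lam a) * lam a := by ring
            _ = lam a := by rw [h6, one_mul]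
        rw [e1]; ring
      · ring
    simp_rw [h3, h5]
    rw [← Finset.mul_sum, Finset.sum_comm]
    have h6 : ∀ a : A, ∑ z : Z, (if (z : A) * a ∈ D then lam a * f a else 0) =
        if a ∈ Z then (Nat.card D : ℂ) * (lam a * f a) else 0 := by
      intro a
      rw [← Finset.sum_filter, Finset.sum_const, nsmul_eq_mul]
      split_ifs with ha
      · congr 2
        rw [Nat.card_eq_fintype_card, Fintype.card_subtype]
        refine Finset.card_bij (fun z _ => (z : A) * a) ?_ ?_ ?_
        · intro z hz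
          rw [Finset.mem_filter] at hz ⊢
          exact ⟨Finset.mem_univ _, hz.2⟩
        · intro z _ z' _ e
          exact Subtype.ext (mul_right_cancel e)
        · intro d hd
          rw [Finset.mem_filter] at hd
          refine ⟨⟨d * a⁻¹, mul_mem hd.2.1 (inv_mem ha)⟩, ?_, by simp⟩
          rw [Finset.mem_filter]
          exact ⟨Finset.mem_univ _, by simpa using hd.2⟩
      · have : (Finset.filter (fun z : Z => (z : A) * a ∈ D) Finset.univ) = ∅ := by
          refine Finset.filter_eq_empty_iff.2 fun {z} _ h => ha ?_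
          have := mul_mem (inv_mem z.2) h.1
          rwa [inv_mul_cancel_left] at this
        rw [this]
        simp
    simp_rw [h6]
    rw [← Finset.sum_filter, ← Finset.mul_sum]
    refine mul_ne_zero ?_ (mul_ne_zero ?_ ?_)
    · exact_mod_cast Fintype.card_ne_zero
    · exact_mod_cast Nat.card_pos.ne'
    · intro h0
      apply hf
      rw [finsum_eq_sum_of_fintype, ← h0,
        Finset.sum_subtype (Finset.univ.filter (fun a : A => a ∈ Z)) (p := fun a : A => a ∈ Z) (fun a => by simp)
          (fun a : A => lam a * f a)]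
      exact Finset.sum_congr rfl fun z _ => mul_comm _ _
  obtain ⟨l, -, hl⟩ := Finset.exists_ne_zero_of_sum_ne_zero key
  refine ⟨cf l, cm l, cpm l, ?_, ?_⟩
  · -- `cf l = lam` on `Z`
    have h1 : ∑ z : Z, lam z * cf l z ≠ 0 := left_ne_zero_of_mul hl
    intro z hz
    have h2 : ∑ y : Z, lam y * cf l y = (lam z * cf l z) * ∑ y : Z, lam y * cf l y := by
      rw [Finset.mul_sum]
      refine (Fintype.sum_equiv (Equiv.mulLeft (⟨z, hz⟩ : Z)) _ _ fun y => ?_).symm
      show lam z * cf l z * (lam y * cf l y) = lam (z * y) * cf l (z * y)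
      rw [hlam z hz y y.2, cm]
      ring
    have h3 : lam z * cf l z = 1 := by
      have h4 : (lam z * cf l z - 1) * ∑ y : Z, lam y * cf l y = 0 := by
        rw [sub_mul, one_mul, ← h2, sub_self]
      rcases mul_eq_zero.1 h4 with h5 | h5
      · exact sub_eq_zero.1 h5
      · exact absurd h5 h1
    calc cf l z = (lam z * lam z) * cf l z := by rw [hll z hz, one_mul]
      _ = lam z * (lam z * cf l z) := by ring
      _ = lam z := by rw [h3, mul_one]
  · rw [finsum_eq_sum_of_fintype]
    exact right_ne_zero_of_mul hl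

end Cfsg.Agent.H168.FRHex
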