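import Cfsg.Agent.H168.FRHex.ShortT

/-!
# The centraliser of a short root involution, indicators (team SR, S4970; helper168)

`short_good` : no irreducible character of `C(x 3 1)` has indicator `-1`.
-/

set_option autoImplicit false
set_option linter.unusedVariables false

namespace Cfsg.Agent.H168.FRHex.Short

open Cfsg Cfsg.Agent.H955.FS Cfsg.Agent.StdRank2.Hex Cfsg.Agent.StdRank2.Hex.HexTwo Cfsg.Agent.SplitTwo
open Cfsg.Agent.H168.SRHex

universe u v

variable {E : Type u} [Field E] {σ : E ≃+* E} {G : Type v} [Group G] {x : ZMod 12 → E → G}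
variable (h : HexTwo σ x)
include h

theorem ci_L [Finite E] (k : ZMod 12) : CI (gen σ x {k, k + 6}) := by
  obtain ⟨K, _, _, ι, θ, hP, hi, -, -, -, hr⟩ := Levi.exists_theta h k
  rintro ⟨t, ht⟩ ⟨y, hy⟩ e1 h1 e2
  rw [← hr] at ht hy
  obtain ⟨A, rfl⟩ := ht
  obtain ⟨B, rfl⟩ := hy
  have := SLTwo.sq_of_comm (l := A) (s := B) (hi (by rw [map_mul, map_one]; exact congrArg Subtype.val e1))
    (fun e3 => h1 (Subtype.ext (by show θ A = 1; rw [e3, map_one])))
    (hi (by rw [map_mul, map_mul]; exact congrArg Subtype.val e2))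
  apply Subtype.ext
  show θ B * θ B = 1
  rw [← map_mul, this, map_one]

theorem L_comm3 {y : G} (hy : y ∈ gen σ x {(0 : ZMod 12), 0 + 6}) (c : E) : y * x 3 c = x 3 c * y := by
  have e06 : (0 : ZMod 12) + 6 = 6 := by decide
  have key : ∀ y ∈ gen σ x {(0 : ZMod 12), 0 + 6}, Commute y (x 3 c) := by
    intro y hy
    unfold gen at hy
    induction hy using Subgroup.closure_induction with
    | mem y hy =>
      obtain ⟨k, hk, t, ht, rfl⟩ := hy
      rcases hk with rfl | hk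
      · exact swap (h.commL3 (k := 0) (by decide) (ht (by decide)) c)
      · rw [Set.mem_singleton_iff, e06] at hk
        subst hk
        exact (h.s36 c (ht (by decide))).symm
    | one => exact Commute.one_left _
    | mul y z _ _ h1 h2 => exact h1.mul_left h2
    | inv y _ h1 => exact h1.inv_left
  exact key y hy

/-- elements of `L` commuting with `x 6 a` -/
theorem mem_6_of_comm [Finite E] {y : G} (hy : y ∈ gen σ x {(0 : ZMod 12), 0 + 6}) {a : E} (ha : σ a = a)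
    (ha0 : a ≠ 0) (e : y * x 6 a = x 6 a * y) : y ∈ gen σ x {6} := by
  have e06 : (0 : ZMod 12) + 6 = 6 := by decide
  have e66 : (6 : ZMod 12) + 6 = 0 := by decide
  have ha6 : Ok σ 6 a := ok_of_fix 6 ha
  have hy' : y ∈ gen σ x {(6 : ZMod 12), 6 + 6} := by
    rw [e66]
    rw [e06] at hy
    have : ({0, 6} : Set (ZMod 12)) = {6, 0} := Set.pair_comm 0 6
    rw [← this]
    exact hy
  rcases h.rank_bruhat hy' with ⟨b, t, hb, ht, ht0, rfl⟩ | ⟨b, t, b', hb, ht, hb', ht0, rfl⟩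
  · have e2 := h.tor 6 6 ht0 ht ha6
    rw [sub_self, ch_zero_right] at e2
    have okt : Ok σ 6 (t ^ 2 * a) := by rw [pow_two]; exact (ht.mul ht).mul ha6
    have e3 : x 6 b * hh x 6 t * x 6 a * (x 6 b * hh x 6 t)⁻¹ = x 6 (t ^ 2 * a) := by
      calc x 6 b * hh x 6 t * x 6 a * (x 6 b * hh x 6 t)⁻¹ = x 6 b * (hh x 6 t * x 6 a * (hh x 6 t)⁻¹) * (x 6 b)⁻¹ := by
            group
        _ = x 6 (t ^ 2 * a) := by rw [e2, (h.x_comm_same hb okt).eq, mul_inv_cancel_right]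
    rw [e, mul_inv_cancel_right, h.x_inj ha6 okt] at e3
    have ht1 : t = 1 := by
      apply h.sq_eq_one
      have : 1 * a = t ^ 2 * a := by rw [one_mul]; exact e3
      rw [← pow_two]
      exact (mul_right_cancel₀ ha0 this).symm
    rw [ht1, h.hh_one, mul_one]
    exact x_mem_gen (Set.mem_singleton 6) hb
  · exfalso
    have e2 := h.refl 6 6 ha6
    have i0 : 2 * (6 : ZMod 12) + 6 - 6 = 0 := by decide
    rw [i0] at e2
    have ha00 : Ok σ 0 a := ok_of_fix 0 ha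
    have e3 := h.tor 6 0 ht0 ht ha00
    set c := ch σ 6 (0 - 6) t * a with hc
    have okc : Ok σ 0 c := by
      have := h.ok_chi 6 0 (t := t) ht
      exact this.mul ha00
    have e4 : x 6 b * x 0 c * (x 6 b)⁻¹ = x 6 a := by
      calc x 6 b * x 0 c * (x 6 b)⁻¹ = x 6 b * (hh x 6 t * (nn x 6 * x 6 a * (nn x 6)⁻¹) * (hh x 6 t)⁻¹) * (x 6 b)⁻¹ := by
            rw [e2, e3]
        _ = x 6 b * (hh x 6 t * (nn x 6 * (x 6 b' * x 6 a * (x 6 b')⁻¹) * (nn x 6)⁻¹) * (hh x 6 t)⁻¹) * (x 6 b)⁻¹ := by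
            rw [(h.x_comm_same hb' ha6).eq, mul_inv_cancel_right]
        _ = (x 6 b * hh x 6 t * nn x 6 * x 6 b') * x 6 a * (x 6 b * hh x 6 t * nn x 6 * x 6 b')⁻¹ := by group
        _ = x 6 a := by rw [e, mul_inv_cancel_right]
    have e5 : x 6 a = x 0 c := by
      calc x 6 a = (x 6 b)⁻¹ * (x 6 b * x 6 a) := by group
        _ = (x 6 b)⁻¹ * (x 6 a * x 6 b) := by rw [(h.x_comm_same hb ha6).eq]
        _ = (x 6 b)⁻¹ * (x 6 b * x 0 c * (x 6 b)⁻¹) * x 6 b := by rw [e4]; group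
        _ = x 0 c := by group
    exact absurd (h.root_unique ha6 okc ha0 e5) (by decide)

/-- 2-subgroups of `L` -/
theorem sylow_L [Finite E] [Finite G] (P : Subgroup G) (hPL : P ≤ gen σ x {(0 : ZMod 12), 0 + 6}) (hP : IsPGroup 2 P) :
    ∃ l ∈ gen σ x {(0 : ZMod 12), 0 + 6}, ∀ g ∈ P, l * g * l⁻¹ ∈ gen σ x {6} := by
  have e06 : (0 : ZMod 12) + 6 = 6 := by decide
  by_cases hb : (⊤ : Subgroup P) = ⊥
  · refine ⟨1, one_mem _, fun g hg => ?_⟩
    have h1 : (⟨g, hg⟩ : P) ∈ (⊤ : Subgroup P) := Subgroup.mem_top _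
    rw [hb, Subgroup.mem_bot] at h1
    have h2 : g = 1 := congrArg Subtype.val h1
    rw [h2, mul_one, mul_inv_cancel]
    exact one_mem _
  · obtain ⟨z, -, hz1, hz2, hz3⟩ := exists_inv_center hP ⊤ hb
    obtain ⟨p, hp, a, ha, ha0, e1⟩ := Levi.L_conj_x h (k := 0) (hPL z.2) (congrArg Subtype.val hz2)
      (fun e => hz1 (Subtype.ext e))
    have fa : σ a = a := ha (by decide)
    have hn : nn x 6 ∈ gen σ x {(0 : ZMod 12), 0 + 6} := by
      refine nn_mem_gen ?_ ?_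
      · rw [e06]; exact Set.mem_insert_of_mem _ (Set.mem_singleton 6)
      · have e66 : (6 : ZMod 12) + 6 = 0 := by decide
        rw [e66]; exact Set.mem_insert _ _
    have hl : nn x 6 * p ∈ gen σ x {(0 : ZMod 12), 0 + 6} := mul_mem hn hp
    refine ⟨nn x 6 * p, hl, fun g hg => ?_⟩
    refine mem_6_of_comm h (mul_mem (mul_mem hl (hPL hg)) (inv_mem hl)) fa ha0 ?_
    have e2 : nn x 6 * x 0 a * (nn x 6)⁻¹ = x 6 a := by
      have := h.refl 6 0 ha
      have i0 : 2 * (6 : ZMod 12) + 6 - 0 = 6 := by decide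
      rwa [i0] at this
    have e3 : (nn x 6 * p) * z * (nn x 6 * p)⁻¹ = x 6 a := by
      calc (nn x 6 * p) * z * (nn x 6 * p)⁻¹ = nn x 6 * (p * z * p⁻¹) * (nn x 6)⁻¹ := by group
        _ = x 6 a := by rw [e1, e2]
    have e4 : g * z = z * g := congrArg Subtype.val (hz3 ⟨g, hg⟩)
    rw [← e3]
    calc nn x 6 * p * g * (nn x 6 * p)⁻¹ * (nn x 6 * p * z * (nn x 6 * p)⁻¹) = nn x 6 * p * (g * z) * (nn x 6 * p)⁻¹ := by
          group
      _ = nn x 6 * p * (z * g) * (nn x 6 * p)⁻¹ := by rw [e4]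
      _ = _ := by group

/-- **The centraliser of a short root involution has no indicator `-1`.** -/
theorem short_good [Finite E] [Finite G] (hA : AA σ x = ⊤) : FSGood True (X3 x) := by
  have e01 : (0 : ZMod 12) + 1 = 1 := by decide
  have hLX : gen σ x {(0 : ZMod 12), 0 + 6} ≤ X3 x := fun y hy => mem_X3.2 (L_comm3 h hy 1)
  have hNX : N σ x ≤ X3 x := fun y hy => (Subgroup.mem_inf.1 hy).2
  have hdec : ∀ g ∈ X3 x, ∃ n ∈ N σ x, ∃ l ∈ gen σ x {(0 : ZMod 12), 0 + 6}, g = n * l := by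
    intro g hg
    have h1 := Cen.mem_P_of_comm h (g := g) (by rw [hA]; exact Subgroup.mem_top g) (by
      rw [mem_X3.1 hg, mul_inv_cancel_right])
    obtain ⟨n, hn, l, hl, rfl⟩ := (h.mem_P 0).1 h1
    refine ⟨n, Subgroup.mem_inf.2 ⟨?_, ?_⟩, l, hl, rfl⟩
    · rw [e01] at hn; exact hn
    · have := (X3 x).mul_mem hg ((X3 x).inv_mem (hLX hl))
      rwa [mul_inv_cancel_right] at this
  have hNn : ∀ g ∈ X3 x, ∀ n ∈ N σ x, g * n * g⁻¹ ∈ N σ x := by
    intro g hg n hn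
    have h1 := Cen.mem_P_of_comm h (g := g) (by rw [hA]; exact Subgroup.mem_top g) (by
      rw [mem_X3.1 hg, mul_inv_cancel_right])
    refine Subgroup.mem_inf.2 ⟨?_, (X3 x).mul_mem ((X3 x).mul_mem hg (hNX hn)) ((X3 x).inv_mem hg)⟩
    have := Levi.Q_conj h (k := 0) h1 (y := n) (by rw [e01]; exact (Subgroup.mem_inf.1 hn).1)
    rwa [e01] at this
  have hNL : ∀ g ∈ N σ x, g ∈ gen σ x {(0 : ZMod 12), 0 + 6} → g = 1 := fun g hg hgL =>
    Levi.eq_one_of_LQ h hgL (by rw [e01]; exact (Subgroup.mem_inf.1 hg).1)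
  have hNU : N σ x ≤ UU σ x := (N_le h).trans inf_le_left
  have hN2 : IsPGroup 2 (N σ x) := h.isPGroup_U.to_le hNU
  have hCN : gen σ x {3} ≤ N σ x := by
    intro y hy
    obtain ⟨c, hc, rfl⟩ := h.mem_gen_singleton.1 hy
    exact (mem_N h).2 ⟨0, 0, c, 0, 0, map_zero σ, map_zero σ, trc_zero_left 1, trc_zero_right 1, by rw [h.uq, h.q3]⟩
  refine good_of_levi (X3 x) (N σ x) (gen σ x {(0 : ZMod 12), 0 + 6}) (gen σ x {3}) (T σ x) hNX hLX hdec hNn hNL hN2
    (ci_L h 0) hCN ?_ ?_ ?_ inf_le_right (T_good h) ?_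
  · intro c hc
    obtain ⟨a, ha, rfl⟩ := h.mem_gen_singleton.1 hc
    exact h.x_sq ha
  · intro c hc l hl
    obtain ⟨a, ha, rfl⟩ := h.mem_gen_singleton.1 hc
    exact L_comm3 h hl a
  · intro s hs hs1 n hn e
    obtain ⟨c, rfl⟩ := LTwo.mem_X3 h hs hs1 (by rw [e01]; exact (Subgroup.mem_inf.1 hn).1) e
    exact x_mem_gen (Set.mem_singleton 3) (ok3 c)
  · intro P hPX hP
    refine sylow_of_levi (X3 x) (N σ x) (gen σ x {(0 : ZMod 12), 0 + 6}) (gen σ x {6}) (T σ x) hNX hLX hdec hNn hNL ?_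
      (fun P hPL hP => sylow_L h P hPL hP) P hPX hP
    intro n hn s hs
    obtain ⟨f, hf, rfl⟩ := h.mem_gen_singleton.1 hs
    have ff : σ f = f := hf (by decide)
    have z : σ (0 : E) = 0 := map_zero σ
    refine (T σ x).mul_mem (N_le h hn) ((mem_T h).2 ⟨0, 0, 0, 0, 0, f, z, z, ff, trc_zero_left 1, trc_zero_right 1, by
      rw [h.uq, h.q6]⟩)

end Cfsg.Agent.H168.FRHex.Short
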