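import Cfsg.Agent.H168.FRHex.Short

/-!
# The Sylow 2-subgroup of the centraliser of a short root involution, indicators (team SR, S4970; helper168)
-/

set_option autoImplicit false
set_option linter.unusedVariables false

namespace Cfsg.Agent.H168.FRHex.Short

open Cfsg Cfsg.Agent.H955.FS Cfsg.Agent.StdRank2.Hex Cfsg.Agent.StdRank2.Hex.HexTwo Cfsg.Agent.SplitTwo

universe u v

variable {E : Type u} [Field E] {σ : E ≃+* E} {G : Type v} [Group G] {x : ZMod 12 → E → G}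
variable (h : HexTwo σ x)
include h

theorem conj_q234 {a b c d e f B C D : E} (hb : σ b = b) (hd : σ d = d) (hf : σ f = f) (hB : σ B = B) (hD : σ D = D) :
    uu x a b c d e f * q x B C D 0 0 * (uu x a b c d e f)⁻¹ = q x (B + trc σ a C) C (D + B * f + trc σ C e) 0 0 := by
  rw [mul_inv_eq_iff_eq_mul]
  exact h.uu_q234 hb hd hf hB hD

/-- the values of a sign character -/
theorem sgn_q {A : Subgroup G} {mu : G → ℂ} (hm : ∀ a ∈ A, ∀ b ∈ A, mu (a * b) = mu a * mu b) {b c d : E}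
    (h2 : x 2 b ∈ A) (h3 : x 3 c ∈ A) (h4 : x 4 d ∈ A) : mu (q x b c d 0 0) = mu (x 2 b) * mu (x 3 c) * mu (x 4 d) := by
  rw [h.q_234, hm _ (mul_mem h2 h3) _ h4, hm _ h2 _ h3]

omit h in
theorem sgn_one {A : Subgroup G} {mu : G → ℂ} (hm : ∀ a ∈ A, ∀ b ∈ A, mu (a * b) = mu a * mu b)
    (hp : ∀ a ∈ A, mu a = 1 ∨ mu a = -1) : mu 1 = 1 := by
  have h1 := hm 1 (one_mem _) 1 (one_mem _)
  rw [mul_one] at h1
  rcases hp 1 (one_mem _) with h2 | h2
  · exact h2
  · rw [h2] at h1; norm_num at h1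

omit h in
theorem sgn_sq {A : Subgroup G} {mu : G → ℂ} (hp : ∀ a ∈ A, mu a = 1 ∨ mu a = -1) {a : G} (ha : a ∈ A) :
    mu a * mu a = 1 := by
  rcases hp a ha with h2 | h2 <;> rw [h2] <;> norm_num

theorem X3_le_A1 (c : E) : x 3 c ∈ A1 σ x := (mem_A1 h).2 ⟨0, 0, c, 0, map_zero σ, map_zero σ, trc_zero_left 1, by
  rw [h.uq, h.q3]⟩

theorem X3_le_A2 (c : E) : x 3 c ∈ A2 σ x := (mem_A2 h).2 ⟨0, c, 0, 0, 0, map_zero σ, map_zero σ, map_zero σ,
  trc_zero_right 1, by rw [h.q3]⟩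

/-- **First case**: a sign character of `Z3`, trivial on `X₂`, non-trivial on `X₄`. -/
theorem case_A1 [Finite G] {lam : G → ℂ} (l1 : ∀ a ∈ Z3 h, ∀ b ∈ Z3 h, lam (a * b) = lam a * lam b)
    (l2 : ∀ a ∈ Z3 h, lam a = 1 ∨ lam a = -1) (k2 : ∀ s, σ s = s → lam (x 2 s) = 1) {t0 : E} (ht0 : σ t0 = t0)
    (k4 : lam (x 4 t0) ≠ 1) {χ : T σ x → ℂ} (hχ : IsIrrCharacter (T σ x) χ)
    (l3 : ∑ᶠ z : Z3 h, χ ⟨z, A1_le h (Z3_le_A1 h z.2)⟩ * lam z ≠ 0) : fsi χ = 1 := by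
  have z : σ (0 : E) = 0 := map_zero σ
  obtain ⟨mu, m1, m2, m3, m4⟩ := exists_sign_amb (T σ x) (A1 σ x) (Z3 h) (A1_le h) (Z3_le_A1 h) lam l1 l2 (by
    intro g hg
    obtain ⟨a, b, c, d, hb, hd, ha, rfl⟩ := (mem_A1 h).1 hg
    rw [sq_A1 h hb hd]
    exact ⟨x2_mem h (h.fix_trc a c), k2 _ (h.fix_trc a c)⟩) χ l3
  have u4 : mu (x 4 t0) ≠ 1 := by rw [m3 _ (x4_mem h ht0)]; exact k4
  have u2 : ∀ s, σ s = s → mu (x 2 s) = 1 := fun s hs => by rw [m3 _ (x2_mem h hs)]; exact k2 s hs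
  refine mono_amb (T σ x) (A1 σ x) (A1_le h) mu m1 m2 ?_ hχ m4
  intro g hgT hgA
  obtain ⟨a, b, c, d, e, f, hb, hd, hf, ha, he, rfl⟩ := (mem_T h).1 hgT
  by_cases hf0 : f = 0
  · have he0 : e ≠ 0 := by
      intro e0
      apply hgA
      rw [hf0, e0]
      exact (mem_A1 h).2 ⟨a, b, c, d, hb, hd, ha, rfl⟩
    have e1 := conj_q234 h (a := a) (b := b) (c := c) (d := d) (e := e) (f := f) (B := 0) (C := t0 / e) (D := 0)
      hb hd hf z z
    rw [h.q3, hf0, trc_comm (t0 / e) e, h.trc_div he0 ht0, zero_add, mul_zero, zero_add, zero_add] at e1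
    refine ⟨x 3 (t0 / e), X3_le_A1 h _, ?_, ?_⟩
    · rw [hf0, e1]
      exact (mem_A1 h).2 ⟨0, _, _, _, h.fix_trc a _, ht0, trc_zero_left 1, (h.uq _ _ _ _ _).symm⟩
    · rw [hf0, e1, sgn_q h m1 (Z3_le_A1 h (x2_mem h (h.fix_trc a _))) (X3_le_A1 h _) (Z3_le_A1 h (x4_mem h ht0)),
        u2 _ (h.fix_trc a _), one_mul]
      intro e2
      apply u4
      have e3 := sgn_sq m2 (X3_le_A1 h (t0 / e))
      calc mu (x 4 t0) = (mu (x 3 (t0 / e)) * mu (x 3 (t0 / e))) * mu (x 4 t0) := by rw [e3, one_mul]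
        _ = mu (x 3 (t0 / e)) * (mu (x 3 (t0 / e)) * mu (x 4 t0)) := by ring
        _ = 1 := by rw [e2, e3]
  · have hs : σ (t0 / f) = t0 / f := by rw [map_div₀, ht0, hf]
    have e1 := conj_q234 h (a := a) (b := b) (c := c) (d := d) (e := e) (f := f) (B := t0 / f) (C := 0) (D := 0)
      hb hd hf hs z
    rw [h.q2, trc_zero_right, trc_zero_left, add_zero, add_zero, zero_add, div_mul_cancel₀ _ hf0] at e1
    refine ⟨x 2 (t0 / f), Z3_le_A1 h (x2_mem h hs), ?_, ?_⟩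
    · rw [e1]
      exact Z3_le_A1 h ⟨_, _, _, hs, z, ht0, rfl⟩
    · rw [e1, sgn_q h m1 (Z3_le_A1 h (x2_mem h hs)) (X3_le_A1 h _) (Z3_le_A1 h (x4_mem h ht0)), u2 _ hs, one_mul,
        h.x_zero, sgn_one m1 m2, one_mul]
      exact u4

/-- **Second case**: a sign character of `Z3`, trivial on `X₄`, non-trivial on `X₂`. -/
theorem case_A2 [Finite G] {lam : G → ℂ} (l1 : ∀ a ∈ Z3 h, ∀ b ∈ Z3 h, lam (a * b) = lam a * lam b)
    (l2 : ∀ a ∈ Z3 h, lam a = 1 ∨ lam a = -1) (k4 : ∀ s, σ s = s → lam (x 4 s) = 1) {t0 : E} (ht0 : σ t0 = t0)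
    (k2 : lam (x 2 t0) ≠ 1) {χ : T σ x → ℂ} (hχ : IsIrrCharacter (T σ x) χ)
    (l3 : ∑ᶠ z : Z3 h, χ ⟨z, A2_le h (Z3_le_A2 h z.2)⟩ * lam z ≠ 0) : fsi χ = 1 := by
  have z : σ (0 : E) = 0 := map_zero σ
  obtain ⟨mu, m1, m2, m3, m4⟩ := exists_sign_amb (T σ x) (A2 σ x) (Z3 h) (A2_le h) (Z3_le_A2 h) lam l1 l2 (by
    intro g hg
    obtain ⟨b, c, d, e, f, hb, hd, hf, he, rfl⟩ := (mem_A2 h).1 hg
    rw [sq_A2 h hb hd hf]
    have hfix : σ (b * f + trc σ c e) = b * f + trc σ c e := by rw [map_add, map_mul, hb, hf, h.fix_trc]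
    exact ⟨x4_mem h hfix, k4 _ hfix⟩) χ l3
  have u2 : mu (x 2 t0) ≠ 1 := by rw [m3 _ (x2_mem h ht0)]; exact k2
  have u4 : ∀ s, σ s = s → mu (x 4 s) = 1 := fun s hs => by rw [m3 _ (x4_mem h hs)]; exact k4 s hs
  refine mono_amb (T σ x) (A2 σ x) (A2_le h) mu m1 m2 ?_ hχ m4
  intro g hgT hgA
  obtain ⟨a, b, c, d, e, f, hb, hd, hf, ha, he, rfl⟩ := (mem_T h).1 hgT
  have ha0 : a ≠ 0 := by
    intro a0
    apply hgA
    rw [a0, h.uq]
    exact (mem_A2 h).2 ⟨b, c, d, e, f, hb, hd, hf, he, rfl⟩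
  have e1 := conj_q234 h (a := a) (b := b) (c := c) (d := d) (e := e) (f := f) (B := 0) (C := t0 / a) (D := 0)
    hb hd hf z z
  rw [h.q3, h.trc_div ha0 ht0, zero_add, zero_mul, zero_add, zero_add] at e1
  have hD : σ (trc σ (t0 / a) e) = trc σ (t0 / a) e := h.fix_trc _ _
  refine ⟨x 3 (t0 / a), X3_le_A2 h _, ?_, ?_⟩
  · rw [e1]
    exact (mem_A2 h).2 ⟨_, _, _, _, _, ht0, hD, z, trc_zero_right 1, rfl⟩
  · rw [e1, sgn_q h m1 (Z3_le_A2 h (x2_mem h ht0)) (X3_le_A2 h _) (Z3_le_A2 h (x4_mem h hD)), u4 _ hD, mul_one]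
    intro e2
    apply u2
    have e3 := sgn_sq m2 (X3_le_A2 h (t0 / a))
    calc mu (x 2 t0) = (mu (x 2 t0) * mu (x 3 (t0 / a))) * mu (x 3 (t0 / a)) := by rw [mul_assoc, e3, mul_one]
      _ = 1 := by rw [e2, e3]

/-- conjugation of `x 5 e'` -/
theorem conj_x5 {a b c d e f e' : E} (hb : σ b = b) (hd : σ d = d) (hf : σ f = f) :
    uu x a b c d e f * x 5 e' * (uu x a b c d e f)⁻¹ = q x (trc σ a (crs σ a e') + trc σ (shp σ a) e') (crs σ a e')
      (trc σ a (shp σ e') + trc σ c e') e' 0 := by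
  have z : σ (0 : E) = 0 := map_zero σ
  have hB : σ (trc σ a (crs σ a e') + trc σ (shp σ a) e') = trc σ a (crs σ a e') + trc σ (shp σ a) e' := by
    rw [map_add, h.fix_trc, h.fix_trc]
  have hD : σ (trc σ a (shp σ e') + trc σ c e') = trc σ a (shp σ e') + trc σ c e' := by
    rw [map_add, h.fix_trc, h.fix_trc]
  rw [mul_inv_eq_iff_eq_mul, ← h.q5, h.uu_q z z z hb hd hf, h.q_uu hB hD z hb hd hf]
  congr 1
  · simp only [zero_mul, add_zero]
    have e1 : trc σ a (crs σ a e') + trc σ (shp σ a) e' + trc σ a (crs σ a e') + trc σ (shp σ a) e' + b =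
      b + (trc σ a (crs σ a e') + trc σ a (crs σ a e')) + (trc σ (shp σ a) e' + trc σ (shp σ a) e') := by ring
    rw [e1, h.add_self, h.add_self, add_zero, add_zero]
  · simp only [zero_mul, add_zero]
    rw [h.add_self, zero_add]
  · simp only [zero_mul, mul_zero, add_zero, trc_zero_left, show (0 : E) ^ 2 = 0 by norm_num]
    have e1 : trc σ a (shp σ e') + trc σ c e' + trc σ a (shp σ e') + d + trc σ c e' =
      d + (trc σ a (shp σ e') + trc σ a (shp σ e')) + (trc σ c e' + trc σ c e') := by ring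
    rw [e1, h.add_self, h.add_self, add_zero, add_zero]
  · rw [zero_mul, add_zero, add_comm]
  · rw [add_zero, zero_add]

/-- **Third case**: a sign character of `Z3`, trivial on `X₂X₄`, non-trivial on `X₃(F)`. -/
theorem case_A3 [Finite G] {lam : G → ℂ} (l1 : ∀ a ∈ Z3 h, ∀ b ∈ Z3 h, lam (a * b) = lam a * lam b)
    (l2 : ∀ a ∈ Z3 h, lam a = 1 ∨ lam a = -1) (k2 : ∀ s, σ s = s → lam (x 2 s) = 1)
    (k4 : ∀ s, σ s = s → lam (x 4 s) = 1) {t0 : E} (ht0 : σ t0 = t0)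
    (k3 : lam (x 3 t0) ≠ 1) {χ : T σ x → ℂ} (hχ : IsIrrCharacter (T σ x) χ)
    (l3 : ∑ᶠ z : Z3 h, χ ⟨z, A2_le h (Z3_le_A2 h z.2)⟩ * lam z ≠ 0) : fsi χ = 1 := by
  have z : σ (0 : E) = 0 := map_zero σ
  obtain ⟨mu, m1, m2, m3, m4⟩ := exists_sign_amb (T σ x) (A2 σ x) (Z3 h) (A2_le h) (Z3_le_A2 h) lam l1 l2 (by
    intro g hg
    obtain ⟨b, c, d, e, f, hb, hd, hf, he, rfl⟩ := (mem_A2 h).1 hg
    rw [sq_A2 h hb hd hf]
    have hfix : σ (b * f + trc σ c e) = b * f + trc σ c e := by rw [map_add, map_mul, hb, hf, h.fix_trc]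
    exact ⟨x4_mem h hfix, k4 _ hfix⟩) χ l3
  have u3 : mu (x 3 t0) ≠ 1 := by rw [m3 _ (x3_mem h ht0)]; exact k3
  have u2 : ∀ s, σ s = s → mu (x 2 s) = 1 := fun s hs => by rw [m3 _ (x2_mem h hs)]; exact k2 s hs
  have u4 : ∀ s, σ s = s → mu (x 4 s) = 1 := fun s hs => by rw [m3 _ (x4_mem h hs)]; exact k4 s hs
  refine mono_amb (T σ x) (A2 σ x) (A2_le h) mu m1 m2 ?_ hχ m4
  intro g hgT hgA
  obtain ⟨a, b, c, d, e, f, hb, hd, hf, ha, he, rfl⟩ := (mem_T h).1 hgT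
  have ha0 : a ≠ 0 := by
    intro a0
    apply hgA
    rw [a0, h.uq]
    exact (mem_A2 h).2 ⟨b, c, d, e, f, hb, hd, hf, he, rfl⟩
  have hta : trc σ a t0 = 0 := by
    have := trc_smul_right ht0 a 1
    rw [mul_one, ha, mul_zero] at this
    exact this
  have hcr := h.crs_solve ha0 hta
  set e' := a * (t0 / shp σ a) with he'
  -- the trace of `e'`
  have htr : trc σ 1 e' = 0 := by
    have hn : nrm σ a ≠ 0 := nrm_ne_zero ha0
    have hs : shp σ a ≠ 0 := shp_ne_zero ha0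
    have hns : nrm σ a = a * shp σ a := by unfold nrm shp; ring
    have e1 : e' = (t0 / nrm σ a) * (a * a) := by
      rw [he', hns]
      field_simp
    have hq : σ (t0 / nrm σ a) = t0 / nrm σ a := by rw [map_div₀, ht0, h.fix_nrm]
    rw [e1, trc_smul_right hq]
    have e2 : trc σ 1 (a * a) = trc σ a 1 * trc σ a 1 := by
      have h2 := h.two
      unfold trc
      simp only [one_mul, mul_one, map_mul]
      linear_combination -(a * σ a + a * σ (σ a) + σ a * σ (σ a)) * h2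
    rw [e2, ha, zero_mul, mul_zero]
  have e1 := conj_x5 h (a := a) (b := b) (c := c) (d := d) (e := e) (f := f) (e' := e') hb hd hf
  rw [hcr] at e1
  have hB : σ (trc σ a t0 + trc σ (shp σ a) e') = trc σ a t0 + trc σ (shp σ a) e' := by
    rw [map_add, h.fix_trc, h.fix_trc]
  have hD : σ (trc σ a (shp σ e') + trc σ c e') = trc σ a (shp σ e') + trc σ c e' := by
    rw [map_add, h.fix_trc, h.fix_trc]
  have m5 : x 5 e' ∈ A2 σ x := (mem_A2 h).2 ⟨0, 0, 0, e', 0, z, z, z, htr, (h.q5 e').symm⟩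
  refine ⟨x 5 e', m5, ?_, ?_⟩
  · rw [e1]
    exact (mem_A2 h).2 ⟨_, _, _, _, _, hB, hD, z, htr, rfl⟩
  · have e2 : q x (trc σ a t0 + trc σ (shp σ a) e') t0 (trc σ a (shp σ e') + trc σ c e') e' 0 =
        q x (trc σ a t0 + trc σ (shp σ a) e') t0 (trc σ a (shp σ e') + trc σ c e') 0 0 * x 5 e' := by
      unfold q
      rw [h.x_zero, h.x_zero, mul_one, mul_one, mul_one]
    rw [e1, e2, m1 _ (Z3_le_A2 h ⟨_, _, _, hB, ht0, hD, rfl⟩) _ m5,
      sgn_q h m1 (Z3_le_A2 h (x2_mem h hB)) (X3_le_A2 h _) (Z3_le_A2 h (x4_mem h hD)), u2 _ hB, u4 _ hD, one_mul, mul_one]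
    intro e3
    apply u3
    have e4 := sgn_sq m2 m5
    calc mu (x 3 t0) = (mu (x 3 t0) * mu (x 5 e')) * mu (x 5 e') := by rw [mul_assoc, e4, mul_one]
      _ = 1 := by rw [e3, e4]

omit h in
/-- the fixed elements as a field -/
theorem fix_mem (u : Fix σ) : σ (u : E) = u := mem_Fix.1 u.2

/-- **`T` has no indicator `-1`.** -/
theorem T_good [Finite E] [Finite G] : FSGood True (T σ x) := by
  have z : σ (0 : E) = 0 := map_zero σ
  intro χ hχ
  have hNle := N_le h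
  rcases dich (T σ x) (Z3 h) ((Z3_le_A1 h).trans (A1_le h)) (fun g hg => Z3_sq h hg) χ with
    ⟨lam, l1, l2, ⟨z0, hz0, hz1⟩, l3⟩ | hker
  · left
    have s1 := sgn_one l1 l2
    by_cases h4 : ∃ t, σ t = t ∧ lam (x 4 t) ≠ 1
    · -- conjugate by `x 6 u`
      obtain ⟨t0, ht0, k4⟩ := h4
      obtain ⟨u, hu⟩ := dual (F := Fix σ) (fun s => lam (x 2 s)) (fun s => lam (x 4 s))
        (fun s t => by
          show lam (x 2 ((s : E) + t)) = _
          rw [h.add 2 _ _ (ok_of_fix 2 (fix_mem s)) (ok_of_fix 2 (fix_mem t)),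
            l1 _ (x2_mem h (fix_mem s)) _ (x2_mem h (fix_mem t))])
        (fun s t => by
          show lam (x 4 ((s : E) + t)) = _
          rw [h.add 4 _ _ (ok_of_fix 4 (fix_mem s)) (ok_of_fix 4 (fix_mem t)),
            l1 _ (x4_mem h (fix_mem s)) _ (x4_mem h (fix_mem t))])
        (by show lam (x 2 ((0 : Fix σ) : E)) = 1; rw [ZeroMemClass.coe_zero, h.x_zero, s1])
        (by show lam (x 4 ((0 : Fix σ) : E)) = 1; rw [ZeroMemClass.coe_zero, h.x_zero, s1])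
        ⟨⟨t0, mem_Fix.2 ht0⟩, k4⟩
      have hu' : ∀ s, σ s = s → lam (x 2 s) = lam (x 4 (u * s)) := fun s hs => hu ⟨s, mem_Fix.2 hs⟩
      have fu := fix_mem u
      have e6 : ∀ b c d, σ b = b → σ d = d → x 6 (u : E) * q x b c d 0 0 * (x 6 (u : E))⁻¹ = q x b c (d + b * u) 0 0 := by
        intro b c d hb hd
        have := conj_q234 h (a := 0) (b := 0) (c := 0) (d := 0) (e := 0) (f := (u : E)) (B := b) (C := c) (D := d)
          z z fu hb hd
        rw [h.uq, h.q6, trc_zero_left, trc_zero_right, add_zero, add_zero] at this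
        exact this
      have hp6 : x 6 (u : E) ∈ T σ x := (mem_T h).2 ⟨0, 0, 0, 0, 0, u, z, z, fu, trc_zero_left 1, trc_zero_right 1, by
        rw [h.uq, h.q6]⟩
      have hn1 : ∀ g ∈ Z3 h, x 6 (u : E) * g * (x 6 (u : E))⁻¹ ∈ Z3 h := by
        rintro _ ⟨b, c, d, hb, hc, hd, rfl⟩
        rw [e6 b c d hb hd]
        exact ⟨_, _, _, hb, hc, by rw [map_add, map_mul, hb, hd, fu], rfl⟩
      have hinv : (x 6 (u : E))⁻¹ = x 6 (u : E) := h.x_inv (ok_of_fix 6 fu)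
      have hn2 : ∀ g, g ∈ Z3 h ↔ x 6 (u : E) * g * (x 6 (u : E))⁻¹ ∈ Z3 h := by
        intro g
        refine ⟨hn1 g, fun hg => ?_⟩
        have := hn1 _ hg
        have e1 : x 6 (u : E) * (x 6 (u : E) * g * (x 6 (u : E))⁻¹) * (x 6 (u : E))⁻¹ = g := by
          calc x 6 (u : E) * (x 6 (u : E) * g * (x 6 (u : E))⁻¹) * (x 6 (u : E))⁻¹ =
              x 6 (u : E) * (x 6 (u : E)) * g * ((x 6 (u : E))⁻¹ * (x 6 (u : E))⁻¹) := by group
            _ = g := by rw [hinv, h.x_sq (ok_of_fix 6 fu), one_mul, mul_one]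
        rwa [e1] at this
      have l3' := conj_over (T σ x) (Z3 h) ((Z3_le_A1 h).trans (A1_le h)) hp6 hn2 lam hχ l3
      refine case_A1 h (lam := fun g => lam (x 6 (u : E) * g * (x 6 (u : E))⁻¹)) ?_ ?_ ?_ ht0 ?_ hχ l3'
      · intro a ha b hb
        show lam _ = lam _ * lam _
        rw [← l1 _ (hn1 a ha) _ (hn1 b hb)]
        congr 1
        group
      · intro a ha
        exact l2 _ (hn1 a ha)
      · intro s hs
        show lam _ = 1
        have e1 := e6 s 0 0 hs z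
        rw [h.q2] at e1
        rw [e1, sgn_q h l1 (x2_mem h hs) (x3_mem h z) (x4_mem h (by rw [zero_add, map_mul, hs, fu])), h.x_zero, s1,
          mul_one, hu' s hs, zero_add, mul_comm s]
        exact sgn_sq l2 (x4_mem h (by rw [map_mul, hs, fu]))
      · show lam _ ≠ 1
        have e1 := e6 0 0 t0 z ht0
        rw [h.q4, zero_mul, add_zero, h.q4] at e1
        rw [e1]
        exact k4
    · push Not at h4
      by_cases h2 : ∃ s, σ s = s ∧ lam (x 2 s) ≠ 1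
      · obtain ⟨s, hs, k2⟩ := h2
        exact case_A2 h l1 l2 h4 hs k2 hχ l3
      · push Not at h2
        obtain ⟨b, c, d, hb, hc, hd, rfl⟩ := hz0
        rw [sgn_q h l1 (x2_mem h hb) (x3_mem h hc) (x4_mem h hd), h2 b hb, h4 d hd, one_mul, mul_one] at hz1
        exact case_A3 h l1 l2 h2 h4 hc hz1 hχ l3
  · -- trivial on `Z3`
    obtain ⟨lam, k1, k2, -, k4⟩ := exists_linear ((N σ x).subgroupOf (T σ x)) ((Z3 h).subgroupOf (T σ x))
      (fun g hg => Subgroup.mem_subgroupOf.2 (Z3_le_N h (Subgroup.mem_subgroupOf.1 hg)))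
      (fun g hg => by
        obtain ⟨a, b, c, d, e, hb, hd, ha, he, e1⟩ := (mem_N h).1 (Subgroup.mem_subgroupOf.1 hg)
        rw [Subgroup.mem_subgroupOf]
        show (g : G) * g ∈ Z3 h
        rw [e1]
        exact sq_N h hb hd ha he) hχ (fun g hg => hker g (Subgroup.mem_subgroupOf.1 hg))
    let lam' : G → ℂ := fun g => open Classical in if hg : g ∈ N σ x then lam ⟨⟨g, hNle hg⟩, Subgroup.mem_subgroupOf.2 hg⟩ else 0
    have hl : ∀ (g : G) (hg : g ∈ N σ x), lam' g = lam ⟨⟨g, hNle hg⟩, Subgroup.mem_subgroupOf.2 hg⟩ := fun g hg =>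
      dif_pos hg
    have fin6 : Finite (gen σ x {6}) := inferInstance
    have hdec : ∀ g ∈ T σ x, ∃ a ∈ N σ x, ∃ y : gen σ x {6}, g = a * (gen σ x {6}).subtype y := by
      intro g hg
      obtain ⟨a, b, c, d, e, f, hb, hd, hf, ha, he, rfl⟩ := (mem_T h).1 hg
      refine ⟨uu x a b c d e 0, (mem_N h).2 ⟨a, b, c, d, e, hb, hd, ha, he, rfl⟩, ⟨x 6 f,
        x_mem_gen (Set.mem_singleton 6) (ok_of_fix 6 hf)⟩, ?_⟩
      show uu x a b c d e f = uu x a b c d e 0 * x 6 f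
      unfold uu q
      rw [h.x_zero, mul_one]
      group
    have h6T : ∀ y : gen σ x {6}, (gen σ x {6}).subtype y ∈ T σ x := by
      rintro ⟨y, hy⟩
      obtain ⟨f, hf, rfl⟩ := h.mem_gen_singleton.1 hy
      have ff : σ f = f := hf (by decide)
      exact (mem_T h).2 ⟨0, 0, 0, 0, 0, f, z, z, ff, trc_zero_left 1, trc_zero_right 1, by
        rw [h.uq, h.q6]; rfl⟩
    have hNn : ∀ g ∈ T σ x, ∀ a ∈ N σ x, g * a * g⁻¹ ∈ N σ x := by
      intro g hg a ha
      refine Subgroup.mem_inf.2 ⟨?_, (X3 x).mul_mem ((X3 x).mul_mem (Subgroup.mem_inf.1 hg).2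
        (Subgroup.mem_inf.1 ha).2) ((X3 x).inv_mem (Subgroup.mem_inf.1 hg).2)⟩
      obtain ⟨a1, b1, c1, d1, e1, f1, hb1, hd1, hf1, ha1, he1, rfl⟩ := (mem_T h).1 hg
      obtain ⟨a2, b2, c2, d2, e2, hb2, hd2, ha2, he2, rfl⟩ := (mem_N h).1 ha
      -- the coordinate at 6
      obtain ⟨a3, b3, c3, d3, e3, f3, hb3, hd3, hf3, e4⟩ := h.mem_UU.1 (mul_mem (mul_mem hg.1
        (uu_mem (x := x) (a := a2) (c := c2) (e := e2) hb2 hd2 z)) (inv_mem hg.1))
      rw [e4, h.mem_Q2]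
      refine ⟨a3, b3, c3, d3, e3, hb3, hd3, ?_⟩
      have e5 : uu x a1 b1 c1 d1 e1 f1 * uu x a2 b2 c2 d2 e2 0 = uu x a3 b3 c3 d3 e3 f3 * uu x a1 b1 c1 d1 e1 f1 := by
        rw [← e4]; group
      rw [h.uu_mul hb1 hd1 hf1 hb2 hd2 z, h.uu_mul hb3 hd3 hf3 hb1 hd1 hf1] at e5
      have e6 := (h.uu_inj (by simp only [map_add, map_mul, h.fix_trc, h.fix_nrm, hb1, hb2, hf1])
        (by simp only [map_add, map_mul, map_pow, h.fix_trc, h.fix_nrm, hb1, hb2, hf1, hd1, hd2])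
        (by rw [map_add, hf1, z]) (by simp only [map_add, map_mul, h.fix_trc, h.fix_nrm, hb1, hb3, hf3])
        (by simp only [map_add, map_mul, map_pow, h.fix_trc, h.fix_nrm, hb1, hb3, hf3, hd1, hd3, hf1])
        (by rw [map_add, hf1, hf3]) e5).2.2.2.2.2
      have e7 : f3 = 0 := by
        have : f3 + f1 = 0 + f1 := by rw [← e6, add_zero, zero_add]
        exact add_right_cancel this
      rw [e7]
    have := clifford_amb (T σ x) (N σ x) hNle hNn (gen σ x {6}).subtype h6T (fun y hy => by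
        obtain ⟨f, hf, e1⟩ := h.mem_gen_singleton.1 y.2
        obtain ⟨a, b, c, d, e, hb, hd, ha, he, e2⟩ := (mem_N h).1 hy
        have ff : σ f = f := hf (by decide)
        have e3 : uu x 0 0 0 0 0 f = uu x a b c d e 0 := by
          rw [← e2, h.uq, h.q6]
          exact e1.symm
        have e4 := (h.uu_inj z z ff hb hd z e3).2.2.2.2.2
        apply Subtype.ext
        rw [e1, e4, h.x_zero]
        rfl) hdec lam'
      (fun a ha b hb => by
        rw [hl a ha, hl b hb, hl _ (mul_mem ha hb), ← k1]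
        rfl)
      (fun a ha => by rw [hl a ha]; exact k2 _)
      (w := True)
      { carrier := {y | ∀ a ∈ N σ x, lam' ((gen σ x {6}).subtype y * a * ((gen σ x {6}).subtype y)⁻¹) = lam' a}
        mul_mem' := by
          intro y y' hy hy' a ha
          rw [← hy' a ha, ← hy _ (hNn _ (h6T y') a ha), map_mul]
          congr 1
          group
        one_mem' := by
          intro a ha
          rw [map_one, one_mul, inv_one, mul_one]
        inv_mem' := by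
          intro y hy a ha
          have hm := hNn _ (h6T y⁻¹) a ha
          rw [← hy _ hm, map_inv]
          congr 1
          group }
      (fun y => Iff.rfl) (good_of_exp_two fun y => by
        obtain ⟨f, hf, e1⟩ := h.mem_gen_singleton.1 y.1.2
        apply Subtype.ext
        apply Subtype.ext
        show (y.1.1 : G) * y.1.1 = 1
        rw [e1, h.x_sq hf]) hχ (by
        intro h0
        apply k4
        rw [← h0]
        let e : (N σ x).subgroupOf (T σ x) ≃ N σ x := (Subgroup.subgroupOfEquivOfLe hNle).toEquiv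
        refine finsum_eq_of_bijective e e.bijective (fun a => ?_)
        show χ a * lam a = χ _ * lam' ((a : T σ x) : G)
        rw [hl _ (Subgroup.mem_subgroupOf.1 a.2)]
        rfl)
    exact this

end Cfsg.Agent.H168.FRHex.Short
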